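import Mathlib
import Cfsg.Agent.Lib.Helper14.PG63.Defs

/-!
# S3664 (team project PG63), package [CLS]

`CH → Cls`: the elements of `Sz(8)` by their trace `c` (`c = 0`: order dividing 4; `c = 1`:
order dividing 5; `c³ = c + 1`: order dividing 7; `c³ = c² + 1`: order dividing 13).
-/

set_option autoImplicit false

namespace Cfsg.Agent.Lib.Helper76.PG63

open Cfsg.Agent.Lib.Helper14.PG63

universe u

section ids

variable {R : Type u} [CommRing R]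

/-- `m(x) = x⁴ + c x³ + c⁴ x² + c x + 1` -/
def mPoly (x c : R) : R := x ^ 4 + c * x ^ 3 + c ^ 4 * x ^ 2 + c * x + 1

theorem id5 (x c : R) (h2 : (2 : R) = 0) (hc : c = 1) :
    x ^ 5 + 1 = mPoly x c * (x + 1) := by
  unfold mPoly
  linear_combination ((-1) * x ^ 1 + (-2) * x ^ 2 + (-1) * x ^ 2 * c ^ 1 + (-1) * x ^ 2 * c ^ 2 + (-1) * x ^ 2 * c ^ 3 + (-2) * x ^ 3 + (-1) * x ^ 3 * c ^ 1 + (-1) * x ^ 3 * c ^ 2 + (-1) * x ^ 3 * c ^ 3 + (-1) * x ^ 4) * hc + ((-1) * x ^ 1 + (-1) * x ^ 2 + (-1) * x ^ 3 + (-1) * x ^ 4) * h2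

theorem id7 (x c : R) (h2 : (2 : R) = 0) (hc : c ^ 3 = c + 1) :
    x ^ 7 + 1 = mPoly x c * (x ^ 3 + c * x ^ 2 + c * x + 1) := by
  unfold mPoly
  linear_combination ((-1) * x ^ 2 * c ^ 1 + (-1) * x ^ 3 + (-1) * x ^ 3 * c ^ 2 + (-1) * x ^ 4 + (-1) * x ^ 4 * c ^ 2 + (-1) * x ^ 5 * c ^ 1) * hc + ((-1) * x ^ 1 * c ^ 1 + (-1) * x ^ 2 * c ^ 1 + (-1) * x ^ 2 * c ^ 2 + (-1) * x ^ 3 + (-1) * x ^ 3 * c ^ 1 + (-1) * x ^ 3 * c ^ 2 + (-1) * x ^ 4 + (-1) * x ^ 4 * c ^ 1 + (-1) * x ^ 4 * c ^ 2 + (-1) * x ^ 5 * c ^ 1 + (-1) * x ^ 5 * c ^ 2 + (-1) * x ^ 6 * c ^ 1) * h2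

theorem id13 (x c : R) (h2 : (2 : R) = 0) (hc : c ^ 3 = c ^ 2 + 1) :
    x ^ 13 + 1 = mPoly x c * (x ^ 9 + c * x ^ 8 + (1 + c) * x ^ 7 + (1 + c + c ^ 2) * x ^ 6 +
      c * x ^ 5 + c * x ^ 4 + (1 + c + c ^ 2) * x ^ 3 + (1 + c) * x ^ 2 + c * x + 1) := by
  unfold mPoly
  linear_combination ((-1) * x ^ 2 + (-1) * x ^ 2 * c ^ 1 + (-1) * x ^ 3 + (-1) * x ^ 3 * c ^ 1 + (-1) * x ^ 3 * c ^ 2 + (-3) * x ^ 4 + (-2) * x ^ 4 * c ^ 1 + (-1) * x ^ 4 * c ^ 2 + (-4) * x ^ 5 + (-3) * x ^ 5 * c ^ 1 + (-2) * x ^ 5 * c ^ 2 + (-1) * x ^ 5 * c ^ 3 + (-2) * x ^ 6 + (-1) * x ^ 6 * c ^ 1 + (-1) * x ^ 6 * c ^ 2 + (-2) * x ^ 7 + (-1) * x ^ 7 * c ^ 1 + (-1) * x ^ 7 * c ^ 2 + (-4) * x ^ 8 + (-3) * x ^ 8 * c ^ 1 + (-2) * x ^ 8 * c ^ 2 + (-1) * x ^ 8 * c ^ 3 + (-3) * x ^ 9 + (-2) * x ^ 9 * c ^ 1 + (-1) * x ^ 9 * c ^ 2 + (-1) * x ^ 10 + (-1) * x ^ 10 * c ^ 1 + (-1) * x ^ 10 * c ^ 2 +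 (-1) * x ^ 11 + (-1) * x ^ 11 * c ^ 1) * hc + ((-1) * x ^ 1 * c ^ 1 + (-1) * x ^ 2 + (-1) * x ^ 2 * c ^ 1 + (-1) * x ^ 2 * c ^ 2 + (-1) * x ^ 3 + (-2) * x ^ 3 * c ^ 1 + (-2) * x ^ 3 * c ^ 2 + (-2) * x ^ 4 + (-2) * x ^ 4 * c ^ 1 + (-3) * x ^ 4 * c ^ 2 + (-2) * x ^ 5 + (-3) * x ^ 5 * c ^ 1 + (-4) * x ^ 5 * c ^ 2 + (-2) * x ^ 6 + (-2) * x ^ 6 * c ^ 1 + (-3) * x ^ 6 * c ^ 2 + (-2) * x ^ 7 + (-2) * x ^ 7 * c ^ 1 + (-3) * x ^ 7 * c ^ 2 + (-2) * x ^ 8 + (-3) * x ^ 8 * c ^ 1 + (-4) * x ^ 8 * c ^ 2 + (-2) * x ^ 9 + (-2) * x ^ 9 * c ^ 1 + (-3) * x ^ 9 * c ^ 2 + (-1) * x ^ 10 + (-2) * x ^ 10 * c ^ 1 + (-2) * x ^ 10 * c ^ 2 + (-1) * x ^ 11 + (-1) * x ^ 11 * c ^ 1 + (-1) * x ^ 11 * c ^ 2 + (-1) * x ^ 12 * c ^ 1) * h2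

theorem fact8 (c : R) (h2 : (2 : R) = 0) (h8 : c ^ 8 = c) :
    c * (c + 1) * (c ^ 3 + c + 1) * (c ^ 3 + c ^ 2 + 1) = 0 := by
  linear_combination h8 + (1 * c ^ 1 + 1 * c ^ 2 + 1 * c ^ 3 + 2 * c ^ 4 + 2 * c ^ 5 + 1 * c ^ 6 + 1 * c ^ 7) * h2

end ids

section mat

variable {F : Type u} [Field F]

theorem aeval_mPoly (M : Matrix (Fin 4) (Fin 4) F) (c : F) :
    Polynomial.aeval M (mPoly (Polynomial.X : Polynomial F) (Polynomial.C c)) =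
      M ^ 4 + c • M ^ 3 + c ^ 4 • M ^ 2 + c • M + 1 := by
  unfold mPoly
  simp [Algebra.smul_def]

theorem two_poly_eq_zero [CharP F 2] : (2 : Polynomial F) = 0 := by
  have h : (2 : Polynomial F) = Polynomial.C (2 : F) := by
    rw [← Polynomial.C_ofNat]
  rw [h, CharTwo.two_eq_zero, Polynomial.C_0]

theorem eq_one_of_add_one [CharP F 2] (A : Matrix (Fin 4) (Fin 4) F) (hA : A + 1 = 0) :
    A = 1 := by
  have h1 : A = -1 := eq_neg_of_add_eq_zero_left hA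
  rw [h1]
  ext i j
  rw [Matrix.neg_apply, CharTwo.neg_eq]

end mat

/-- **[CLS]** -/
theorem pkgCls : PkgCls.{u} := by
  intro hCH F _ _ _ hcard M hM
  have hch := hCH hcard M hM
  generalize hc : M.trace = c at hch ⊢
  have h2 : (2 : F) = 0 := CharTwo.two_eq_zero
  have h2X : (2 : Polynomial F) = 0 := two_poly_eq_zero
  have h8 : c ^ 8 = c := by
    have h := FiniteField.pow_card c
    rwa [hcard] at h
  have hm0 : Polynomial.aeval M (mPoly (Polynomial.X : Polynomial F) (Polynomial.C c)) = 0 := by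
    rw [aeval_mPoly]
    exact hch
  have hf := fact8 c h2 h8
  rcases mul_eq_zero.mp hf with hf | h4
  · rcases mul_eq_zero.mp hf with hf | h3
    · rcases mul_eq_zero.mp hf with h0 | h1
      · left
        refine ⟨h0, ?_⟩
        apply eq_one_of_add_one
        rw [h0] at hch
        simpa using hch
      · right; left
        have hc1 : c = 1 := by linear_combination h1 - h2
        refine ⟨hc1, ?_⟩
        apply eq_one_of_add_one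
        have hid := id5 (Polynomial.X : Polynomial F) (Polynomial.C c) h2X
          (by rw [hc1, Polynomial.C_1])
        have h5 := congrArg (Polynomial.aeval M) hid
        rw [map_mul, hm0, zero_mul] at h5
        simpa using h5
    · right; right; left
      have hc3 : c ^ 3 = c + 1 := by linear_combination h3 - (c + 1) * h2
      refine ⟨hc3, ?_⟩
      apply eq_one_of_add_one
      have hid := id7 (Polynomial.X : Polynomial F) (Polynomial.C c) h2X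
        (by rw [← Polynomial.C_pow, hc3, Polynomial.C_add, Polynomial.C_1])
      have h7 := congrArg (Polynomial.aeval M) hid
      rw [map_mul, hm0, zero_mul] at h7
      simpa using h7
  · right; right; right
    have hc3 : c ^ 3 = c ^ 2 + 1 := by linear_combination h4 - (c ^ 2 + 1) * h2
    refine ⟨hc3, ?_⟩
    apply eq_one_of_add_one
    have hid := id13 (Polynomial.X : Polynomial F) (Polynomial.C c) h2X
      (by rw [← Polynomial.C_pow, hc3, Polynomial.C_add, Polynomial.C_pow, Polynomial.C_1])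
    have h13 := congrArg (Polynomial.aeval M) hid
    rw [map_mul, hm0, zero_mul] at h13
    simpa using h13

end Cfsg.Agent.Lib.Helper76.PG63
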