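import Mathlib
import Cfsg.Agent.Lib.Helper14.PG63.Defs
import Cfsg.Agent.Lib.Helper76.PG63.Cls

/-!
# S3664 (team project PG63), package [FPF]

`CH → Cls → PMap → Fpf`: an element `t` of order 13 of `Sz(8)` has no nonzero fixed point on
`W = M₄(F₈)` for the action `X ↦ t * X * (t^(2))ᵀ`.
-/

set_option autoImplicit false

namespace Cfsg.Agent.Lib.Helper76.PG63

open Cfsg.Agent.Lib.Helper14.PG63
open scoped Matrix

universe u

section ids

variable {R : Type u} [CommRing R]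

/-- `m'(x) = x⁴ + c² x³ + c x² + c² x + 1` -/
def mPoly' (x c : R) : R := x ^ 4 + c ^ 2 * x ^ 3 + c * x ^ 2 + c ^ 2 * x + 1

theorem bez13 (x c : R) (h2 : (2 : R) = 0) (hc : c ^ 3 = c ^ 2 + 1) :
    ((1 + c + c ^ 2) + (1 + c + c ^ 2) * x ^ 2 + (1 + c) * x ^ 3) * mPoly x c +
      ((c + c ^ 2) + x + (1 + c) * x ^ 3) * mPoly' x c = 1 := by
  unfold mPoly mPoly'
  linear_combination (3 * x ^ 1 + 1 * x ^ 1 * c ^ 1 + 5 * x ^ 2 + 3 * x ^ 2 * c ^ 1 + 2 * x ^ 2 * c ^ 2 + 1 * x ^ 2 * c ^ 3 + 4 * x ^ 3 + 1 * x ^ 3 * c ^ 1 + 5 * x ^ 4 + 3 * x ^ 4 * c ^ 1 + 2 * x ^ 4 * c ^ 2 + 1 * x ^ 4 * c ^ 3 + 3 * x ^ 5 + 2 * x ^ 5 * c ^ 1 + 1 * x ^ 5 * c ^ 2 + 1 * x ^ 6) * hc + (1 * c ^ 1 + 1 * c ^ 2 + 2 * x ^ 1 + 1 * x ^ 1 * c ^ 1 + 2 * x ^ 1 * c ^ 2 + 3 * x ^ 2 + 2 * x ^ 2 * c ^ 1 + 5 * x ^ 2 * c ^ 2 + 3 * x ^ 3 + 3 * x ^ 3 * c ^ 1 + 3 * x ^ 3 * c ^ 2 + 3 * x ^ 4 + 3 * x ^ 4 * c ^ 1 + 6 * x ^ 4 * c ^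 2 + 2 * x ^ 5 + 2 * x ^ 5 * c ^ 1 + 3 * x ^ 5 * c ^ 2 + 1 * x ^ 6 + 1 * x ^ 6 * c ^ 1 + 2 * x ^ 6 * c ^ 2 + 1 * x ^ 7 + 1 * x ^ 7 * c ^ 1) * h2

end ids

section mat

variable {F : Type u} [Field F]

theorem aeval_mPoly' (M : Matrix (Fin 4) (Fin 4) F) (c : F) :
    Polynomial.aeval M (mPoly' (Polynomial.X : Polynomial F) (Polynomial.C c)) =
      M ^ 4 + c ^ 2 • M ^ 3 + c • M ^ 2 + c ^ 2 • M + 1 := by
  unfold mPoly'
  simp [Algebra.smul_def]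

theorem trace_sqm [Fintype F] [CharP F 2] (M : Matrix (Fin 4) (Fin 4) F) :
    (sqm F M).trace = M.trace ^ 2 := by
  have h2 : (2 : F) = 0 := CharTwo.two_eq_zero
  simp only [Matrix.trace, Matrix.diag_apply, Fin.sum_univ_four, sqm_apply]
  linear_combination (-(M 0 0 * M 1 1 + M 0 0 * M 2 2 + M 0 0 * M 3 3 + M 1 1 * M 2 2 +
    M 1 1 * M 3 3 + M 2 2 * M 3 3)) * h2

end mat

/-- **[FPF]** -/
theorem pkgFpf : PkgFpf.{u} := by
  intro hCH hCls hPMap F _ _ _ hcard t X ht h13 hne hfix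
  have h2 : (2 : F) = 0 := CharTwo.two_eq_zero
  have h2X : (2 : Polynomial F) = 0 := two_poly_eq_zero
  have hch := hCH hcard t ht
  have hcls := hCls hcard t ht
  have hs : Pred (sqm F t) := by
    rw [sqm_eq]
    exact hPMap (frobenius F 2) t ht
  have hchs := hCH hcard (sqm F t) hs
  rw [trace_sqm] at hchs
  generalize hc : t.trace = c at hch hcls hchs
  have h8 : c ^ 8 = c := by
    have h := FiniteField.pow_card c
    rwa [hcard] at h
  -- the trace satisfies `c ^ 3 = c ^ 2 + 1`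
  have hc3 : c ^ 3 = c ^ 2 + 1 := by
    rcases hcls with ⟨_, h4⟩ | ⟨_, h5⟩ | ⟨_, h7⟩ | ⟨h, _⟩
    · exfalso
      apply hne
      have e : t ^ 13 = (t ^ 4) ^ 3 * t := by rw [← pow_mul, ← pow_succ]
      rw [h4, one_pow, one_mul] at e
      rw [← e, h13]
    · exfalso
      apply hne
      have e1 : t ^ 13 = (t ^ 5) ^ 2 * t ^ 3 := by rw [← pow_mul, ← pow_add]
      rw [h5, one_pow, one_mul, h13] at e1
      have e2 : t ^ 5 = t ^ 3 * t ^ 2 := by rw [← pow_add]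
      rw [h5, ← e1, one_mul] at e2
      have e3 : t ^ 3 = t ^ 2 * t := by rw [← pow_succ]
      rw [← e1, ← e2, one_mul] at e3
      exact e3.symm
    · exfalso
      apply hne
      have e1 : t ^ 13 = t ^ 7 * t ^ 6 := by rw [← pow_add]
      rw [h7, one_mul, h13] at e1
      have e2 : t ^ 7 = t ^ 6 * t := by rw [← pow_succ]
      rw [h7, ← e1, one_mul] at e2
      exact e2.symm
    · exact h
  -- `m(t) = 0`
  have hm0 : Polynomial.aeval t (mPoly (Polynomial.X : Polynomial F) (Polynomial.C c)) = 0 := by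
    rw [aeval_mPoly]
    exact hch
  -- `m'(v) = 0`, `v = (sqm t)ᵀ`
  have hc24 : (c ^ 2) ^ 4 = c := by
    rw [← pow_mul]
    exact h8
  rw [hc24] at hchs
  have hv : ((sqm F t)ᵀ) ^ 4 + c ^ 2 • ((sqm F t)ᵀ) ^ 3 + c • ((sqm F t)ᵀ) ^ 2 +
      c ^ 2 • (sqm F t)ᵀ + 1 = 0 := by
    have h := congrArg Matrix.transpose hchs
    simpa [Matrix.transpose_pow] using h
  generalize (sqm F t)ᵀ = v at hfix hv
  -- `t ^ k * X * v ^ k = X`
  have hk : ∀ k : ℕ, t ^ k * X * v ^ k = X := by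
    intro k
    induction k with
    | zero => simp
    | succ k ih =>
      calc t ^ (k + 1) * X * v ^ (k + 1) = t ^ k * (t * X * v) * v ^ k := by
            rw [pow_succ, pow_succ']
            simp only [Matrix.mul_assoc]
        _ = X := by rw [hfix, ih]
  have e1 : t ^ 4 * X * v ^ 3 = t * X := by
    calc t ^ 4 * X * v ^ 3 = t * (t ^ 3 * X * v ^ 3) := by
          rw [pow_succ' t 3]
          simp only [Matrix.mul_assoc]
      _ = t * X := by rw [hk 3]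
  have e2 : t ^ 4 * X * v ^ 2 = t ^ 2 * X := by
    calc t ^ 4 * X * v ^ 2 = t ^ 2 * (t ^ 2 * X * v ^ 2) := by
          rw [show t ^ 4 = t ^ 2 * t ^ 2 from by rw [← pow_add]]
          simp only [Matrix.mul_assoc]
      _ = t ^ 2 * X := by rw [hk 2]
  have e3 : t ^ 4 * X * v = t ^ 3 * X := by
    calc t ^ 4 * X * v = t ^ 3 * (t * X * v) := by
          rw [pow_succ t 3]
          simp only [Matrix.mul_assoc]
      _ = t ^ 3 * X := by rw [hfix]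
  have key : (t ^ 4 + c ^ 2 • t ^ 3 + c • t ^ 2 + c ^ 2 • t + 1) * X = 0 := by
    have h1 : (t ^ 4 + c ^ 2 • t ^ 3 + c • t ^ 2 + c ^ 2 • t + 1) * X =
        t ^ 4 * X * (v ^ 4 + c ^ 2 • v ^ 3 + c • v ^ 2 + c ^ 2 • v + 1) := by
      simp only [Matrix.mul_add, Matrix.add_mul, Matrix.mul_smul, Matrix.smul_mul,
        Matrix.mul_one, Matrix.one_mul]
      rw [hk 4, e1, e2, e3]
      abel
    rw [h1, hv, Matrix.mul_zero]
  -- Bezout
  have hb := bez13 (Polynomial.X : Polynomial F) (Polynomial.C c) h2X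
    (by rw [← Polynomial.C_pow, hc3, Polynomial.C_add, Polynomial.C_pow, Polynomial.C_1])
  have hb' := congrArg (Polynomial.aeval t) hb
  rw [map_add, map_mul, map_mul, hm0, mul_zero, zero_add, aeval_mPoly', map_one] at hb'
  calc X = 1 * X := (Matrix.one_mul X).symm
    _ = _ * (t ^ 4 + c ^ 2 • t ^ 3 + c • t ^ 2 + c ^ 2 • t + 1) * X := by rw [hb']
    _ = 0 := by rw [Matrix.mul_assoc, key, Matrix.mul_zero]

end Cfsg.Agent.Lib.Helper76.PG63
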